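import Mathlib
import Cfsg.Agent.Lib.Helper51.Zass.Defs

/-!
# ZASS (S0690), package [FIN-C]: the cut into [FIN-C1] and [FIN-C2]

* [FIN-C1] (steps (1)-(6) of the paper proof): in a perfect f.p.f. group in which `N3 G` is a
  plane, `N3 G = ⊤`.
* [FIN-C2] (step (7)): a finite group with at most one involution which is a plane is `SL(2,5)`.
-/

set_option autoImplicit false

namespace Cfsg.Agent.Lib.Helper45.Zass

open Cfsg.Agent.Lib.Helper51.Zass

universe u

/-- [FIN-C1] in a perfect f.p.f. group in which `N3 G` is a plane, `N3 G = ⊤`. -/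
def PkgFinC1 : Prop :=
  ∀ (G : Type u) [Group G] [Finite G], IsFpfLin G → commutator G = ⊤ → IsPlane (N3 G) →
    N3 G = ⊤

/-- [FIN-C2] a finite group with at most one involution which is itself a plane is `SL(2,5)`. -/
def PkgFinC2 : Prop :=
  ∀ (G : Type u) [Group G] [Finite G],
    (∀ s t : G, orderOf s = 2 → orderOf t = 2 → s = t) →
    ∀ H : Subgroup G, IsPlane H → H = ⊤ →
      Nonempty (G ≃* Matrix.SpecialLinearGroup (Fin 2) (ZMod 5))

/-- [FIN-C] from the two halves (and [UI]). -/
theorem pkgFinC_of (hUI : PkgUI.{u}) (h1 : PkgFinC1.{u}) (h2 : PkgFinC2.{u}) : PkgFinC.{u} := by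
  intro G _ _ hfpf hperf hplane
  exact h2 G (hUI G hfpf) (N3 G) hplane (h1 G hfpf hperf hplane)

end Cfsg.Agent.Lib.Helper45.Zass
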